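import Cfsg.Agent.Lib.PSU32.Model

/-!
# The subgroup lattice of `PSU₃(2)` is not complemented
-/

set_option autoImplicit false
set_option linter.unusedSectionVars false

open Matrix
open Cfsg Cfsg.Agent.Lib.PSU32.Model

namespace Cfsg.Agent.Lib.PSU32.Main

variable {F : Type*} [Field F] [Fintype F]

/-- The matrix of an element of `SU₃`. -/
def mat (A : SU 3 F 2) : Matrix (Fin 3) (Fin 3) F := A.1.1

theorem mat_mul (A B : SU 3 F 2) : mat (A * B) = mat A * mat B := rfl

theorem mat_one : mat (1 : SU 3 F 2) = 1 := rfl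

theorem mat_det (A : SU 3 F 2) : (mat A).det = 1 := A.1.2

theorem ortho (A : SU 3 F 2) (i j : Fin 3) :
    ∑ k, mat A k i * (mat A k j) ^ 2 = if i = j then 1 else 0 := by
  have h : hermForm 3 F 2 (mat A *ᵥ Pi.single i 1) (mat A *ᵥ Pi.single j 1) =
      hermForm 3 F 2 (Pi.single i 1) (Pi.single j 1) := A.2 (Pi.single i 1) (Pi.single j 1)
  have e : ∀ i, (mat A *ᵥ Pi.single i (1 : F)) = fun k => mat A k i := by
    intro i
    ext k
    simp
  rw [e, e] at h
  have e2 : hermForm 3 F 2 (Pi.single i (1 : F)) (Pi.single j (1 : F)) = if i = j then 1 else 0 := by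
    fin_cases i <;> fin_cases j <;> simp [hermForm, Fin.sum_univ_three]
  rw [e2] at h
  exact h

theorem preserves_of (h2 : (2 : F) = 0) (M : Matrix (Fin 3) (Fin 3) F)
    (h : ∀ i j, ∑ k, M k i * (M k j) ^ 2 = if i = j then 1 else 0) (u v : Fin 3 → F) :
    hermForm 3 F 2 (M *ᵥ u) (M *ᵥ v) = hermForm 3 F 2 u v := by
  have H : ∀ x y z : F, (x + y + z) ^ 2 = x ^ 2 + y ^ 2 + z ^ 2 := by
    intro x y z
    linear_combination (x * y + x * z + y * z) * h2
  have h00 := h 0 0
  have h01 := h 0 1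
  have h02 := h 0 2
  have h10 := h 1 0
  have h11 := h 1 1
  have h12 := h 1 2
  have h20 := h 2 0
  have h21 := h 2 1
  have h22 := h 2 2
  simp only [Fin.sum_univ_three, Fin.isValue, Fin.reduceEq, if_false, if_true] at h00 h01 h02 h10 h11 h12 h20 h21 h22
  simp only [hermForm, Matrix.mulVec, dotProduct, Fin.sum_univ_three, H, mul_pow]
  linear_combination u 0 * (v 0) ^ 2 * h00 + u 0 * (v 1) ^ 2 * h01 + u 0 * (v 2) ^ 2 * h02 +
    u 1 * (v 0) ^ 2 * h10 + u 1 * (v 1) ^ 2 * h11 + u 1 * (v 2) ^ 2 * h12 +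
    u 2 * (v 0) ^ 2 * h20 + u 2 * (v 1) ^ 2 * h21 + u 2 * (v 2) ^ 2 * h22

/-- Making an element of `SU₃`. -/
def mkSU (h2 : (2 : F) = 0) (M : Matrix (Fin 3) (Fin 3) F) (hd : M.det = 1)
    (h : ∀ i j, ∑ k, M k i * (M k j) ^ 2 = if i = j then 1 else 0) : SU 3 F 2 :=
  ⟨⟨M, hd⟩, fun u v => preserves_of h2 M h u v⟩

theorem mat_mkSU (h2 : (2 : F) = 0) (M : Matrix (Fin 3) (Fin 3) F) (hd : M.det = 1)
    (h : ∀ i j, ∑ k, M k i * (M k j) ^ 2 = if i = j then 1 else 0) : mat (mkSU h2 M hd h) = M := rfl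

/-- The monomial subgroup. -/
def Mon : Subgroup (SU 3 F 2) :=
  have hmul : ∀ {A B : SU 3 F 2}, (∀ j, ∃ i, ∀ k, k ≠ i → mat A k j = 0) →
      (∀ j, ∃ i, ∀ k, k ≠ i → mat B k j = 0) → (∀ j, ∃ i, ∀ k, k ≠ i → mat (A * B) k j = 0) := by
    intro A B hA hB j
    obtain ⟨i, hi⟩ := hB j
    obtain ⟨i', hi'⟩ := hA i
    refine ⟨i', fun k hk => ?_⟩
    rw [mat_mul, Matrix.mul_apply]
    apply Finset.sum_eq_zero
    intro l _
    by_cases hl : l = i
    · rw [hl, hi' k hk, zero_mul]
    · rw [hi l hl, mul_zero]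
  have hone : ∀ j : Fin 3, ∃ i, ∀ k, k ≠ i → mat (1 : SU 3 F 2) k j = 0 := by
    intro j
    refine ⟨j, fun k hk => ?_⟩
    rw [mat_one, Matrix.one_apply_ne hk]
  { carrier := {A | ∀ j, ∃ i, ∀ k, k ≠ i → mat A k j = 0}
    mul_mem' := hmul
    one_mem' := hone
    inv_mem' := by
      intro A hA
      have hpow : ∀ n : ℕ, ∀ j, ∃ i, ∀ k, k ≠ i → mat (A ^ n) k j = 0 := by
        intro n
        induction n with
        | zero => simpa using hone
        | succ n ih =>
          rw [pow_succ]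
          exact hmul ih hA
      have hinv : A⁻¹ = A ^ (orderOf A - 1) := by
        apply inv_eq_of_mul_eq_one_right
        rw [← pow_succ', Nat.sub_add_cancel (orderOf_pos A), pow_orderOf_eq_one]
      change ∀ j, ∃ i, ∀ k, k ≠ i → mat A⁻¹ k j = 0
      rw [hinv]
      exact hpow _ }

theorem mem_Mon {A : SU 3 F 2} : A ∈ Mon ↔ ∀ j, ∃ i, ∀ k, k ≠ i → mat A k j = 0 := Iff.rfl

/-- Scalar matrices. -/
def IsScal (M : Matrix (Fin 3) (Fin 3) F) : Prop := ∃ c : F, ∀ i j, M i j = if i = j then c else 0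

/-- The finite check, transferred to the field. -/
theorem star {w : F} (hw : w ^ 2 = w + 1) (h2 : (2 : F) = 0) (h0 : w ≠ 0) (h1 : w ≠ 1)
    (hall : ∀ x : F, x = 0 ∨ x = 1 ∨ x = w ∨ x = w + 1) (A : SU 3 F 2) (hA : A ∉ Mon) :
    A * A ∈ Mon ∧ ¬ IsScal (mat (A * A)) := by
  have hs := phi_surj (w := w) hall
  choose g hg using hs
  let a : Fin 3 → Fin 3 → Fin 4 := fun i j => g (mat A i j)
  have ha : ∀ i j, phi w (a i j) = mat A i j := fun i j => hg _
  have hinj := phi_inj h2 h0 h1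
  have hM : (Matrix.of fun i j => phi w (a i j)) = mat A := by
    ext i j
    exact ha i j
  have h1' : ∀ i j, cip (fun k => a k i) (fun k => a k j) = if i = j then 1 else 0 := by
    intro i j
    apply hinj
    rw [phi_cip h2 hw]
    simp only [ha]
    rw [ortho]
    split_ifs <;> rfl
  have h2' : cdet a = 1 := by
    apply hinj
    rw [phi_cdet h2 hw, hM, mat_det]
    rfl
  have hsq : ∀ i j, phi w (csq a i j) = mat (A * A) i j := by
    intro i j
    rw [phi_csq h2 hw, hM, mat_mul]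
  rcases star2 a h1' h2' with h3 | ⟨h3, h4⟩
  · exfalso
    apply hA
    intro j
    obtain ⟨i, hi⟩ := h3 j
    refine ⟨i, fun k hk => ?_⟩
    rw [← ha, hi k hk]
    rfl
  · refine ⟨fun j => ?_, ?_⟩
    · obtain ⟨i, hi⟩ := h3 j
      refine ⟨i, fun k hk => ?_⟩
      rw [← hsq, hi k hk]
      rfl
    · rintro ⟨c, hc⟩
      obtain ⟨c', hc'⟩ : ∃ c', phi w c' = c := ⟨g c, hg c⟩
      apply h4
      refine ⟨c', fun i j => ?_⟩
      apply hinj
      rw [hsq, hc]
      split_ifs
      · exact hc'.symm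
      · rfl

/-- Central elements are scalar. -/
theorem center_scal {w : F} (hw : w ^ 2 = w + 1) (h2 : (2 : F) = 0) (h0 : w ≠ 0) (h1 : w ≠ 1)
    {C : SU 3 F 2} (hC : C ∈ Subgroup.center (SU 3 F 2)) : IsScal (mat C) := by
  have hw3 : w * (w + 1) = 1 := by linear_combination hw + h2 * w
  have hww : (w + 1) ^ 2 = w := by linear_combination hw + (w + 1) * h2
  have hw1 : w + 1 ≠ 0 := fun h => h1 (by linear_combination h - h2)
  let d : Fin 3 → F := ![1, w, w + 1]
  let D : SU 3 F 2 := mkSU h2 (Matrix.diagonal d)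
    (by
      rw [Matrix.det_diagonal, Fin.prod_univ_three]
      simp [d]
      exact hw3)
    (by
      intro i j
      fin_cases i <;> fin_cases j <;> simp [Fin.sum_univ_three, d, hw, hww, Matrix.diagonal_apply]
      · exact hw3
      · linear_combination hw3)
  let P : SU 3 F 2 := mkSU h2 !![0, 1, 0; 0, 0, 1; 1, 0, 0]
    (by
      rw [Matrix.det_fin_three]
      simp)
    (by
      intro i j
      fin_cases i <;> fin_cases j <;> simp [Fin.sum_univ_three])
  have hD : mat D * mat C = mat C * mat D := by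
    have := Subgroup.mem_center_iff.mp hC D
    rw [← mat_mul, ← mat_mul, this]
  have hP : mat P * mat C = mat C * mat P := by
    have := Subgroup.mem_center_iff.mp hC P
    rw [← mat_mul, ← mat_mul, this]
  have hD' : ∀ i j, d i * mat C i j = mat C i j * d j := by
    intro i j
    have := congrFun (congrFun hD i) j
    rwa [mat_mkSU, Matrix.diagonal_mul, Matrix.mul_diagonal] at this
  have hoff : ∀ i j, d i ≠ d j → mat C i j = 0 := by
    intro i j hij
    have h3 : (d i - d j) * mat C i j = 0 := by linear_combination hD' i j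
    rcases mul_eq_zero.mp h3 with h4 | h4
    · exact absurd (sub_eq_zero.mp h4) hij
    · exact h4
  have hd01 : d 0 ≠ d 1 := fun h => h1 h.symm
  have hd02 : d 0 ≠ d 2 := fun h => h0 (by
    have h' : (1 : F) = w + 1 := h
    linear_combination -h')
  have hd12 : d 1 ≠ d 2 := fun h => by
    have h' : w = w + 1 := h
    simp at h'
  have h11 : mat C 1 1 = mat C 0 0 := by
    have := congrFun (congrFun hP 0) 1
    rw [Matrix.mul_apply, Matrix.mul_apply, Fin.sum_univ_three, Fin.sum_univ_three, mat_mkSU] at this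
    simpa using this
  have h22 : mat C 2 2 = mat C 1 1 := by
    have := congrFun (congrFun hP 1) 2
    rw [Matrix.mul_apply, Matrix.mul_apply, Fin.sum_univ_three, Fin.sum_univ_three, mat_mkSU] at this
    simpa using this
  refine ⟨mat C 0 0, fun i j => ?_⟩
  fin_cases i <;> fin_cases j
  · rfl
  · exact hoff 0 1 hd01
  · exact hoff 0 2 hd02
  · exact hoff 1 0 hd01.symm
  · exact h11
  · exact hoff 1 2 hd12
  · exact hoff 2 0 hd02.symm
  · exact hoff 2 1 hd12.symm
  · exact h22.trans h11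

/-- Scalar elements of `SU₃` are monomial. -/
theorem mem_Mon_of_scal {A : SU 3 F 2} (h : IsScal (mat A)) : A ∈ Mon := by
  obtain ⟨c, hc⟩ := h
  intro j
  refine ⟨j, fun k hk => ?_⟩
  rw [hc, if_neg hk]

/-- The main theorem. -/
theorem main (hF : Fintype.card F = 4) : ¬ ComplementedLattice (Subgroup (PSU 3 F 2)) := by
  intro hc
  obtain ⟨w, hw, h2, h0, h1, hall⟩ := exists_w hF
  let q : SU 3 F 2 →* PSU 3 F 2 := QuotientGroup.mk' _
  have hq : Function.Surjective q := QuotientGroup.mk'_surjective _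
  have hqker : ∀ {A : SU 3 F 2}, q A = 1 → IsScal (mat A) := by
    intro A hA
    have hA' : A ∈ Subgroup.center (SU 3 F 2) := (QuotientGroup.eq_one_iff A).mp hA
    exact center_scal hw h2 h0 h1 hA'
  let H : Subgroup (PSU 3 F 2) := Mon.map q
  obtain ⟨X, hX⟩ := exists_isCompl H
  have hinf : ∀ x, x ∈ H → x ∈ X → x = 1 := by
    intro x hx hx'
    have : x ∈ H ⊓ X := ⟨hx, hx'⟩
    rw [hX.inf_eq_bot] at this
    exact this
  have hXbot : X = ⊥ := by
    rw [eq_bot_iff]
    intro x hx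
    obtain ⟨A, rfl⟩ := hq x
    rw [Subgroup.mem_bot]
    by_cases hA : A ∈ Mon
    · exact hinf _ ⟨A, hA, rfl⟩ hx
    · exfalso
      obtain ⟨h3, h4⟩ := star hw h2 h0 h1 hall A hA
      have h5 : q (A * A) = 1 := by
        apply hinf _ ⟨A * A, h3, rfl⟩
        rw [map_mul]
        exact X.mul_mem hx hx
      exact h4 (hqker h5)
  have hHtop : H = ⊤ := by
    have := hX.sup_eq_top
    rwa [hXbot, sup_bot_eq] at this
  -- an element which is not monomial
  have hww : (w + 1) ^ 2 = w := by linear_combination hw + (w + 1) * h2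
  let A₀ : SU 3 F 2 := mkSU h2 !![1, 1, 1; 1, w, w + 1; 1, w + 1, w]
    (by
      rw [Matrix.det_fin_three]
      simp
      linear_combination -w * h2)
    (by
      intro i j
      fin_cases i <;> fin_cases j <;> simp [Fin.sum_univ_three, hw, hww]
      all_goals first
        | linear_combination h2
        | linear_combination (1 + w) * h2
        | linear_combination (w ^ 2 + w) * h2
        | linear_combination (w ^ 2 + w + 1) * h2)
  have hA₀ : q A₀ ∈ H := by
    rw [hHtop]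
    trivial
  obtain ⟨B, hB, hBA⟩ := hA₀
  have hs : q (B⁻¹ * A₀) = 1 := by
    rw [map_mul, map_inv, hBA, inv_mul_cancel]
  have hmem : A₀ ∈ Mon := by
    have h5 := Mon.mul_mem hB (mem_Mon_of_scal (hqker hs))
    rwa [mul_inv_cancel_left] at h5
  obtain ⟨i, hi⟩ := hmem 0
  have hne : ∃ k : Fin 3, k ≠ i := by
    fin_cases i
    · exact ⟨1, by decide⟩
    · exact ⟨0, by decide⟩
    · exact ⟨0, by decide⟩
  obtain ⟨k, hk⟩ := hne
  have h6 := hi k hk
  rw [mat_mkSU] at h6
  fin_cases k <;> simp at h6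

end Cfsg.Agent.Lib.PSU32.Main
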