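import Cfsg.Prelude.Def_Classical

/-!
# A concrete model of the field with four elements, and a finite check in `SU₃(2)`
-/

set_option autoImplicit false
set_option linter.unusedSectionVars false

namespace Cfsg.Agent.Lib.PSU32.Model

/-- Multiplication table of the field with four elements. -/
def cmul (a b : Fin 4) : Fin 4 :=
  (![![0, 0, 0, 0], ![0, 1, 2, 3], ![0, 2, 3, 1], ![0, 3, 1, 2]] : Fin 4 → Fin 4 → Fin 4) a b

/-- The hermitian product. -/
def cip (a b : Fin 3 → Fin 4) : Fin 4 :=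
  cmul (a 0) (cmul (b 0) (b 0)) ^^^ cmul (a 1) (cmul (b 1) (b 1)) ^^^ cmul (a 2) (cmul (b 2) (b 2))

/-- The determinant. -/
def cdet (m : Fin 3 → Fin 3 → Fin 4) : Fin 4 :=
  cmul (m 0 0) (cmul (m 1 1) (m 2 2)) ^^^ cmul (m 0 0) (cmul (m 1 2) (m 2 1)) ^^^
  cmul (m 0 1) (cmul (m 1 0) (m 2 2)) ^^^ cmul (m 0 1) (cmul (m 1 2) (m 2 0)) ^^^
  cmul (m 0 2) (cmul (m 1 0) (m 2 1)) ^^^ cmul (m 0 2) (cmul (m 1 1) (m 2 0))

/-- The square of a matrix. -/
def csq (m : Fin 3 → Fin 3 → Fin 4) (i j : Fin 3) : Fin 4 :=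
  cmul (m i 0) (m 0 j) ^^^ cmul (m i 1) (m 1 j) ^^^ cmul (m i 2) (m 2 j)

/-- Monomial matrices. -/
def mono (m : Fin 3 → Fin 3 → Fin 4) : Prop :=
  ∀ j : Fin 3, ∃ i : Fin 3, ∀ k : Fin 3, k ≠ i → m k j = 0

/-- Scalar matrices. -/
def scal (m : Fin 3 → Fin 3 → Fin 4) : Prop :=
  ∃ c : Fin 4, ∀ i j : Fin 3, m i j = if i = j then c else 0

instance (m : Fin 3 → Fin 3 → Fin 4) : Decidable (mono m) := by unfold mono; infer_instance
instance (m : Fin 3 → Fin 3 → Fin 4) : Decidable (scal m) := by unfold scal; infer_instance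

set_option synthInstance.maxHeartbeats 0 in
set_option synthInstance.maxSize 100000 in
set_option maxRecDepth 1000000 in
set_option maxHeartbeats 0 in
theorem star_fact : ∀ a1 a2 a3 : Fin 4, cip ![a1, a2, a3] ![a1, a2, a3] = 1 →
    ∀ b1 b2 b3 : Fin 4, cip ![b1, b2, b3] ![b1, b2, b3] = 1 → cip ![a1, a2, a3] ![b1, b2, b3] = 0 →
    ∀ c1 c2 c3 : Fin 4, cip ![c1, c2, c3] ![c1, c2, c3] = 1 → cip ![a1, a2, a3] ![c1, c2, c3] = 0 →
      cip ![b1, b2, b3] ![c1, c2, c3] = 0 → cdet ![![a1, b1, c1], ![a2, b2, c2], ![a3, b3, c3]] = 1 →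
      mono ![![a1, b1, c1], ![a2, b2, c2], ![a3, b3, c3]] ∨
      (mono (csq ![![a1, b1, c1], ![a2, b2, c2], ![a3, b3, c3]]) ∧
        ¬ scal (csq ![![a1, b1, c1], ![a2, b2, c2], ![a3, b3, c3]])) := by
  decide +kernel

theorem star2 (a : Fin 3 → Fin 3 → Fin 4)
    (h : ∀ i j, cip (fun k => a k i) (fun k => a k j) = if i = j then 1 else 0)
    (hd : cdet a = 1) : mono a ∨ (mono (csq a) ∧ ¬ scal (csq a)) := by
  have e : a = ![![a 0 0, a 0 1, a 0 2], ![a 1 0, a 1 1, a 1 2], ![a 2 0, a 2 1, a 2 2]] := by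
    ext i j
    fin_cases i <;> fin_cases j <;> rfl
  have ec : ∀ j : Fin 3, (fun k => a k j) = ![a 0 j, a 1 j, a 2 j] := by
    intro j
    ext k
    fin_cases k <;> rfl
  have h00 := h 0 0
  have h11 := h 1 1
  have h22 := h 2 2
  have h01 := h 0 1
  have h02 := h 0 2
  have h12 := h 1 2
  simp only [ec] at h00 h11 h22 h01 h02 h12
  rw [e]
  refine star_fact _ _ _ (by simpa using h00) _ _ _ (by simpa using h11) (by simpa using h01)
    _ _ _ (by simpa using h22) (by simpa using h02) (by simpa using h12) ?_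
  rw [← e]
  exact hd

variable {F : Type*} [Field F] [Fintype F]

theorem exists_w (hF : Fintype.card F = 4) :
    ∃ w : F, w ^ 2 = w + 1 ∧ (2 : F) = 0 ∧ w ≠ 0 ∧ w ≠ 1 ∧
      ∀ x : F, x = 0 ∨ x = 1 ∨ x = w ∨ x = w + 1 := by
  classical
  have h4 : (4 : F) = 0 := by
    have := FiniteField.cast_card_eq_zero F
    rw [hF] at this
    exact_mod_cast this
  have h2 : (2 : F) = 0 := by
    have : (2 : F) * 2 = 0 := by
      rw [← h4]
      norm_num
    exact mul_self_eq_zero.mp this
  have hpow : ∀ x : F, x ^ 4 = x := by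
    intro x
    have := FiniteField.pow_card x
    rwa [hF] at this
  obtain ⟨w, hw0, hw1⟩ : ∃ w : F, w ≠ 0 ∧ w ≠ 1 := by
    by_contra hcon
    push Not at hcon
    have h1 : (Finset.univ : Finset F) ⊆ {0, 1} := by
      intro x _
      by_cases hx : x = 0
      · simp [hx]
      · simp [hcon x hx]
    have h3 := Finset.card_le_card h1
    rw [Finset.card_univ, hF] at h3
    have h5 := Finset.card_le_two (a := (0 : F)) (b := 1)
    omega
  have hw : w ^ 2 = w + 1 := by
    have h1 : w * (w - 1) * (w ^ 2 + w + 1) = w ^ 4 - w := by ring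
    rw [hpow, sub_self] at h1
    have h3 : w ^ 2 + w + 1 = 0 := by
      rcases mul_eq_zero.mp h1 with h5 | h5
      · rcases mul_eq_zero.mp h5 with h6 | h6
        · exact absurd h6 hw0
        · exact absurd (sub_eq_zero.mp h6) hw1
      · exact h5
    linear_combination h3 - (w + 1) * h2
  refine ⟨w, hw, h2, hw0, hw1, fun x => ?_⟩
  have h1 : x * (x + 1) * (x + w) * (x + (w + 1)) = 0 := by
    have h3 := hpow x
    linear_combination h3 + (x + x ^ 3 + x ^ 2 + (x ^ 2 + x) * w * (x + 1)) * h2 + (x ^ 2 + x) * hw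
  rcases mul_eq_zero.mp h1 with h5 | h5
  · rcases mul_eq_zero.mp h5 with h6 | h6
    · rcases mul_eq_zero.mp h6 with h7 | h7
      · exact Or.inl h7
      · right; left
        linear_combination h7 - h2
    · right; right; left
      linear_combination h6 - w * h2
  · right; right; right
    linear_combination h5 - (w + 1) * h2

section Phi

variable (w : F)

/-- The identification of the model with the field. -/
def phi : Fin 4 → F := ![0, 1, w, w + 1]

variable {w}

theorem phi_add (h2 : (2 : F) = 0) (a b : Fin 4) : phi w (a ^^^ b) = phi w a + phi w b := by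
  fin_cases a <;> fin_cases b <;> simp [phi]
  all_goals first
    | ring1
    | linear_combination -h2
    | linear_combination -w * h2
    | linear_combination -(w + 1) * h2

theorem phi_mul (h2 : (2 : F) = 0) (hw : w ^ 2 = w + 1) (a b : Fin 4) :
    phi w (cmul a b) = phi w a * phi w b := by
  fin_cases a <;> fin_cases b <;> simp [phi, cmul]
  all_goals first
    | linear_combination -hw
    | linear_combination -hw - w * h2
    | linear_combination -hw - (w + 1) * h2

theorem phi_inj (h2 : (2 : F) = 0) (h0 : w ≠ 0) (h1 : w ≠ 1) : Function.Injective (phi w) := by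
  have h3 : w + 1 ≠ 0 := fun h => h1 (by linear_combination h - h2)
  have h4 : w + 1 ≠ 1 := fun h => h0 (by linear_combination h)
  have h5 : w ≠ w + 1 := fun h => by simpa using h
  have h6 : (1 : F) ≠ 0 := one_ne_zero
  intro a b hab
  fin_cases a <;> fin_cases b <;> first | rfl | (exfalso; simp [phi] at hab; done) | skip
  all_goals exfalso
  all_goals simp [phi] at hab
  all_goals first
    | exact h0 hab
    | exact h0 hab.symm
    | exact h1 hab
    | exact h1 hab.symm
    | exact h3 hab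
    | exact h3 hab.symm
    | exact h4 hab
    | exact h4 hab.symm

theorem phi_surj (h : ∀ x : F, x = 0 ∨ x = 1 ∨ x = w ∨ x = w + 1) (x : F) : ∃ a, phi w a = x := by
  rcases h x with rfl | rfl | rfl | rfl
  · exact ⟨0, rfl⟩
  · exact ⟨1, rfl⟩
  · exact ⟨2, rfl⟩
  · exact ⟨3, rfl⟩

/-- Transfer of the hermitian product. -/
theorem phi_cip (h2 : (2 : F) = 0) (hw : w ^ 2 = w + 1) (a b : Fin 3 → Fin 4) :
    phi w (cip a b) = ∑ k, phi w (a k) * (phi w (b k)) ^ 2 := by
  simp only [cip, phi_add h2, phi_mul h2 hw, Fin.sum_univ_three, pow_two]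

theorem phi_cdet (h2 : (2 : F) = 0) (hw : w ^ 2 = w + 1) (m : Fin 3 → Fin 3 → Fin 4) :
    phi w (cdet m) = Matrix.det (Matrix.of fun i j => phi w (m i j)) := by
  rw [Matrix.det_fin_three]
  simp only [cdet, phi_add h2, phi_mul h2 hw, Matrix.of_apply]
  linear_combination (-(phi w (m 0 0) * phi w (m 1 2) * phi w (m 2 1)) -
    phi w (m 0 1) * phi w (m 1 0) * phi w (m 2 2) - phi w (m 0 2) * phi w (m 1 1) * phi w (m 2 0)) * h2 * 0
    + (phi w (m 0 0) * (phi w (m 1 2) * phi w (m 2 1)) + phi w (m 0 1) * (phi w (m 1 0) * phi w (m 2 2))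
      + phi w (m 0 2) * (phi w (m 1 1) * phi w (m 2 0))) * h2

theorem phi_csq (h2 : (2 : F) = 0) (hw : w ^ 2 = w + 1) (m : Fin 3 → Fin 3 → Fin 4) (i j : Fin 3) :
    phi w (csq m i j) = ((Matrix.of fun i j => phi w (m i j)) * (Matrix.of fun i j => phi w (m i j))) i j := by
  rw [Matrix.mul_apply, Fin.sum_univ_three]
  simp only [csq, phi_add h2, phi_mul h2 hw, Matrix.of_apply]

end Phi

end Cfsg.Agent.Lib.PSU32.Model
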